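import Cfsg.Agent.H48.CompPrim2

/-!
Composition length of permutation groups: `c(G) ≤ 4/3 (n - r)`.
-/

set_option autoImplicit false
set_option linter.unusedSectionVars false

namespace Cfsg.Agent.H48

open Subgroup MulAction

lemma ac_eq_of_faithful {G Ω : Type*} [Group G] [Finite G] [MulAction G Ω] [FaithfulSMul G Ω] :
    ac G Ω = cl (⊤ : Subgroup G) := by
  have h := cl_map_of_injective (toPermHom G Ω) MulAction.toPerm_injective ⊤
  rwa [← MonoidHom.range_eq_map] at h

lemma ob_ge_two {G Ω : Type*} [Group G] [MulAction G Ω] [Finite Ω] {α β : Ω}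
    (h : ∀ g : G, g • α ≠ β) : 2 ≤ ob G Ω := by
  by_contra hlt
  have h1 : Nat.card (Quotient (orbitRel G Ω)) ≤ 1 := by
    have : ob G Ω ≤ 1 := by omega
    exact this
  rw [Finite.card_le_one_iff_subsingleton] at h1
  have h2 : (Quotient.mk (orbitRel G Ω) β) = Quotient.mk _ α := Subsingleton.elim _ _
  obtain ⟨g, hg⟩ := Quotient.exact h2
  exact h g hg

theorem all_bd : ∀ n, Bd n := by
  intro n
  induction n using Nat.strong_induction_on with
  | _ n IH =>
    intro G _ _ Ω _ _ hn
    rcases Nat.lt_or_ge n 2 with h2 | h2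
    · have hob := ob_le_card (G := G) (Ω := Ω)
      have h1 : Nat.card (toPermHom G Ω).range ≤ Nat.card (Equiv.Perm Ω) := Subgroup.card_le_card_group _
      have h3 : Nat.card (Equiv.Perm Ω) = 1 := by
        rw [Nat.card_perm, hn]
        interval_cases n <;> rfl
      have h4 := cl_pow_le (toPermHom G Ω).range
      have h5 : ac G Ω = 0 := by
        by_contra hne
        have : 2 ^ 1 ≤ 2 ^ ac G Ω := Nat.pow_le_pow_right (by norm_num) (by omega)
        have h6 : 2 ^ ac G Ω ≤ 1 := by
          rw [← h3]; exact h4.trans h1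
        omega
      omega
    by_cases htr : ∀ α β : Ω, ∃ g : G, g • α = β
    swap
    · push Not at htr
      obtain ⟨α, β, hαβ⟩ := htr
      refine intrans IH G Ω hn (MulAction.orbit G α) ?_ α β (MulAction.mem_orbit_self α) ?_
      · rintro g _ ⟨h, rfl⟩
        exact ⟨g * h, mul_smul g h α⟩
      · rintro ⟨g, hg⟩
        exact hαβ g hg
    have htrG : IsPretransitive G Ω := ⟨htr⟩
    have hne : Nonempty Ω := by
      rw [← Finite.card_pos_iff, hn]; omega
    obtain ⟨α⟩ := hne
    by_cases hmax : ∀ X : Subgroup G, stabilizer G α < X → X = ⊤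
    swap
    · push Not at hmax
      obtain ⟨X, hX, hX2⟩ := hmax
      exact imprim IH G Ω hn α X hX hX2
    -- primitive case
    let G' : Subgroup (Equiv.Perm Ω) := (toPermHom G Ω).range
    have hG'mem : ∀ g : G, toPermHom G Ω g ∈ G' := fun g => ⟨g, rfl⟩
    have htr' : IsPretransitive G' Ω := ⟨fun a b => by
      obtain ⟨g, hg⟩ := htr a b
      exact ⟨⟨_, hG'mem g⟩, hg⟩⟩
    have hmax' : ∀ X : Subgroup G', stabilizer G' α < X → X = ⊤ := by
      intro X hX
      have h1 : X.comap (toPermHom G Ω).rangeRestrict = ⊤ := by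
        apply hmax
        refine lt_of_le_of_ne ?_ ?_
        · intro g hg
          exact hX.le (show (toPermHom G Ω).rangeRestrict g ∈ stabilizer G' α from hg)
        · intro he
          obtain ⟨⟨_, g, rfl⟩, hxX, hx⟩ := SetLike.exists_of_lt hX
          apply hx
          have : g ∈ stabilizer G α := by rw [he]; exact hxX
          exact this
      rw [eq_top_iff]
      rintro ⟨_, g, rfl⟩ -
      have : g ∈ X.comap (toPermHom G Ω).rangeRestrict := by rw [h1]; trivial
      exact this
    have hac : ac G Ω = cl (⊤ : Subgroup G') := (cl_top_subgroup G').symm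
    have hst : 3 * cl (stabilizer G' α) + 8 ≤ 4 * n := by
      have hnt : Nontrivial Ω := Finite.one_lt_card_iff_nontrivial.mp (by omega)
      obtain ⟨β, hβ⟩ := exists_ne α
      have hne : ∀ g : stabilizer G' α, g • α ≠ β := by
        rintro ⟨g, hg⟩ h
        apply hβ
        rw [← h]
        exact hg
      have h1 := intrans IH (stabilizer G' α) Ω hn {α} (by
        rintro ⟨g, hg⟩ x hx
        rw [Set.mem_singleton_iff] at hx ⊢
        rw [hx]
        exact hg) α β rfl hβ
      have h3 : 2 ≤ ob (stabilizer G' α) Ω := ob_ge_two hne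
      rw [ac_eq_of_faithful, cl_top_subgroup] at h1
      omega
    have h5 := prim_bound (G := G') (Ω := Ω) α hn h2 hmax' hst
    have hob2 : ob G Ω ≤ 1 := by
      have : Subsingleton (Quotient (orbitRel G Ω)) := by
        constructor
        intro a b
        induction a using Quotient.inductionOn with
        | h a =>
          induction b using Quotient.inductionOn with
          | h b =>
            apply Quotient.sound
            obtain ⟨k, hk⟩ := exists_smul_eq G b a
            exact ⟨k, hk⟩
      exact Finite.card_le_one_iff_subsingleton.mpr this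
    omega

theorem comp_length_bound {G Ω : Type*} [Group G] [Finite G] [MulAction G Ω] [FaithfulSMul G Ω] [Fintype Ω]
    (l : ℕ) (hl : SC (⊤ : Subgroup G) l) :
    3 * l + 4 * ob G Ω ≤ 4 * Fintype.card Ω := by
  classical
  set n := Fintype.card Ω with hn
  let e : Ω ≃ Fin n := Fintype.equivFin Ω
  let f : G →* Equiv.Perm (Fin n) := (e.permCongrHom.toMonoidHom).comp (toPermHom G Ω)
  have hf : Function.Injective f := e.permCongrHom.injective.comp MulAction.toPerm_injective
  have h1 := cl_map_of_injective f hf ⊤
  rw [← MonoidHom.range_eq_map] at h1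
  have h2 := all_bd n f.range (Fin n) (by simp)
  rw [ac_eq_of_faithful, cl_top_subgroup, h1] at h2
  have h3 : ob G Ω ≤ ob f.range (Fin n) := by
    refine Nat.card_le_card_of_surjective (Quotient.map' (s₁ := MulAction.orbitRel f.range (Fin n))
      (s₂ := MulAction.orbitRel G Ω) e.symm ?_) ?_
    · rintro a b ⟨⟨_, g, rfl⟩, rfl⟩
      refine ⟨g, ?_⟩
      change g • e.symm b = e.symm (e (g • e.symm b))
      rw [Equiv.symm_apply_apply]
    · intro q
      induction q using Quotient.inductionOn with
      | h x =>
        refine ⟨Quotient.mk _ (e x), ?_⟩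
        change Quotient.mk _ (e.symm (e x)) = _
        rw [Equiv.symm_apply_apply]
  have h4 := hl.le_cl
  omega

end Cfsg.Agent.H48
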