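import Cfsg.Agent.H48.PrimSys
import Cfsg.Agent.H48.CompLen3
import Cfsg.Agent.S0493

/-!
Composition length of primitive permutation groups (the bound `4/3 (n - 1)`).
-/

set_option autoImplicit false
set_option linter.unusedSectionVars false

namespace Cfsg.Agent.H48

open Subgroup MulAction
open scoped Pointwise

lemma sixty_le {T : Type*} [Group T] [Finite T] (hs : IsSimpleGroup T) (hc : ¬ IsMulCommutative T) :
    60 ≤ Nat.card T := by
  have hcyc : ¬ IsCyclic T := fun h => hc ⟨⟨fun a b => by
    have := h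
    exact (IsCyclic.commGroup (α := T)).mul_comm a b⟩⟩
  rcases Nat.lt_or_ge 100 (Nat.card T) with h | h
  · omega
  · have := Cfsg.Agent.S0493.result hcyc h
    omega

namespace Sys

variable {G : Type*} [Group G] [Finite G] {N : Subgroup G} {k : ℕ} {L : Fin k → Subgroup G}

lemma map_comap (h : Sys N L) (A : Subgroup G) : (A.comap h.emb).map h.emb = A ⊓ N := by
  rw [Subgroup.map_comap_eq, h.emb_range, inf_comm]

lemma cl_comap (h : Sys N L) (A : Subgroup G) : cl (A.comap h.emb) = cl (A ⊓ N) := by
  have h1 := cl_map_of_injective h.emb h.emb_inj (A.comap h.emb)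
  rw [h.map_comap A] at h1
  exact h1.symm

lemma card_comap (h : Sys N L) (A : Subgroup G) :
    Nat.card (A.comap h.emb) = Nat.card (A ⊓ N : Subgroup G) := by
  have h1 : Nat.card ((A.comap h.emb).map h.emb) = Nat.card (A.comap h.emb) :=
    Nat.card_congr ((A.comap h.emb).equivMapOfInjective h.emb h.emb_inj).symm.toEquiv
  rw [h.map_comap A] at h1
  exact h1.symm

lemma cl_eq (h : Sys N L) : cl N ≤ k := by
  have h1 := cl_map_of_injective h.emb h.emb_inj ⊤
  rw [← MonoidHom.range_eq_map, h.emb_range] at h1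
  rw [h1]
  have := PiSub.cl_top_le (T := fun i => L i) h.simple
  simpa using this

/-- if `A` misses the factors then `A ⊓ N` is small. -/
lemma card_sq_le (h : Sys N L) [hN : N.Normal] (A : Subgroup G) (hAN : A ⊔ N = ⊤)
    (hmax : ∀ X : Subgroup G, A < X → X = ⊤) (hA : ∀ i, A ⊓ L i = ⊥) :
    Nat.card (A ⊓ N : Subgroup G) ^ 2 ≤ Nat.card N := by
  rw [← h.card_comap A, h.card]
  rcases h.product_or_full A hAN hmax with hf | ⟨-, hp⟩
  · refine PiSub.card_sq_le (T := fun i => L i) h.simple h.nonc _ ?_ ?_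
    · intro i t
      have : t ∈ h.K A i := by rw [hf i]; trivial
      obtain ⟨x, hx, hxt⟩ := this
      exact ⟨x, hx, hxt⟩
    · intro i d hd hd1
      have e : d = Pi.mulSingle i (d i) := by
        funext j
        by_cases hj : j = i
        · subst hj; simp
        · rw [hd1 j hj, Pi.mulSingle_eq_of_ne hj]
      have h1 : h.emb d ∈ A ⊓ L i := by
        refine ⟨hd, ?_⟩
        rw [e, h.emb_single]
        exact (d i).2
      rw [hA i, Subgroup.mem_bot] at h1
      apply h.emb_inj
      rw [h1, map_one]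
  · have : A.comap h.emb = ⊥ := by
      rw [eq_bot_iff]
      intro x hx
      rw [Subgroup.mem_bot]
      have hx2 := (hp x).mp hx
      funext i
      have h1 : h.emb (Pi.mulSingle i (x i)) ∈ A := by
        rw [hp]
        intro j
        by_cases hj : j = i
        · subst hj; simpa using hx2 j
        · rw [Pi.mulSingle_eq_of_ne hj]; exact Subgroup.one_mem _
      rw [h.emb_single] at h1
      have h2 : ((x i : L i) : G) ∈ A ⊓ L i := ⟨h1, (x i).2⟩
      rw [hA i, Subgroup.mem_bot] at h2
      exact Subtype.ext h2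
    rw [this]
    simp only [card_bot, one_pow]
    rw [← h.card]
    exact Nat.card_pos

lemma dichotomy (h : Sys N L) [hN : N.Normal] (A : Subgroup G) (hAN : A ⊔ N = ⊤)
    (hmax : ∀ X : Subgroup G, A < X → X = ⊤) {n : ℕ} (hn : n * Nat.card (A ⊓ N : Subgroup G) = Nat.card N) :
    cl N ≤ cl (A ⊓ N) + 1 ∨ (Nat.card N ≤ n ^ 2 ∧ 256 ≤ n) := by
  classical
  by_cases hA : ∀ i, A ⊓ L i = ⊥
  swap
  · left
    push Not at hA
    obtain ⟨i₀, hi₀⟩ := hA
    have hall := h.all_or_none A hAN hi₀
    have h1 : Fintype.card (Fin k) ≤ cl (A.comap h.emb) := by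
      apply PiSub.card_le_cl
      intro i
      obtain ⟨⟨x, hxA, hxL⟩, hx1⟩ : ∃ x : (A ⊓ L i : Subgroup G), x ≠ 1 := by
        by_contra hc
        push Not at hc
        apply hall i
        rw [eq_bot_iff]
        intro y hy
        have := hc ⟨y, hy⟩
        rw [Subgroup.mem_bot]
        exact congrArg Subtype.val this
      refine ⟨Pi.mulSingle i ⟨x, hxL⟩, ?_, ?_, ?_⟩
      · rw [Subgroup.mem_comap, h.emb_single]
        exact hxA
      · intro he
        have := congrFun he i
        rw [Pi.mulSingle_eq_same] at this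
        apply hx1
        apply Subtype.ext
        exact congrArg (fun z : L i => (z : G)) this
      · intro j hj
        exact Pi.mulSingle_eq_of_ne hj _
    rw [h.cl_comap A, Fintype.card_fin] at h1
    have := h.cl_eq
    omega
  have hsq := h.card_sq_le A hAN hmax hA
  have hNn : Nat.card N ≤ n ^ 2 := by
    have h1 : Nat.card N * Nat.card N ≤ n ^ 2 * Nat.card N := by
      calc Nat.card N * Nat.card N = n ^ 2 * Nat.card (A ⊓ N : Subgroup G) ^ 2 := by
            rw [← hn]; ring
        _ ≤ n ^ 2 * Nat.card N := Nat.mul_le_mul le_rfl hsq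
    exact Nat.le_of_mul_le_mul_right h1 Nat.card_pos
  have hcard60 : 60 ^ k ≤ Nat.card N := by
    rw [h.card]
    calc 60 ^ k = ∏ _i : Fin k, 60 := by simp
      _ ≤ ∏ i, Nat.card (L i) :=
        Finset.prod_le_prod (fun _ _ => Nat.zero_le _) (fun i _ => sixty_le (h.simple i) (h.nonc i))
  have hclN := h.cl_eq
  rcases Nat.lt_or_ge k 2 with hk | hk
  · left; omega
  rcases Nat.lt_or_ge k 3 with hk3 | hk3
  · have hk2 : k = 2 := by omega
    by_cases hD : A ⊓ N = ⊥
    · right
      refine ⟨hNn, ?_⟩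
      have h1 : Nat.card (A ⊓ N : Subgroup G) = 1 := by rw [hD]; simp
      rw [h1, mul_one] at hn
      rw [hk2] at hcard60
      omega
    · left
      have := one_le_cl hD
      omega
  · right
    refine ⟨hNn, ?_⟩
    have h1 : 60 ^ 3 ≤ 60 ^ k := Nat.pow_le_pow_right (by norm_num) hk3
    by_contra hlt
    have h2 : n ≤ 255 := by omega
    have h3 : n ^ 2 ≤ 255 ^ 2 := Nat.pow_le_pow_left h2 2
    omega

end Sys

/-- small affine degrees -/
lemma small_four {m c : ℕ} (hm : m ∣ 24) (hc : c ≤ m.primeFactorsList.length) : c ≤ 4 := by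
  have h1 : m ∈ Nat.divisors 24 := Nat.mem_divisors.mpr ⟨hm, by norm_num⟩
  have h2 : ∀ m ∈ Nat.divisors 24, m.primeFactorsList.length ≤ 4 := by
    have : Nat.divisors 24 = {1, 2, 3, 4, 6, 8, 12, 24} := by decide
    rw [this]
    decide +kernel
  exact hc.trans (h2 m h1)

end Cfsg.Agent.H48
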