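import Cfsg.Agent.H48.CompPrim

/-!
Composition length of primitive permutation groups (the bound `4/3 (n - 1)`), continued.
-/

set_option autoImplicit false
set_option linter.unusedSectionVars false

namespace Cfsg.Agent.H48

open Subgroup MulAction
open scoped Pointwise

lemma le_pow_length {c B : ℕ} (hc : c ≠ 0) (h : ∀ p : ℕ, p.Prime → p ∣ c → p ≤ B) :
    c ≤ B ^ c.primeFactorsList.length := by
  conv_lhs => rw [← Nat.prod_primeFactorsList hc]
  apply List.prod_le_pow_card
  intro x hx
  exact h x (Nat.prime_of_mem_primeFactorsList hx) (Nat.dvd_of_mem_primeFactorsList hx)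

lemma length_mul {a b : ℕ} (ha : a ≠ 0) (hb : b ≠ 0) :
    (a * b).primeFactorsList.length = a.primeFactorsList.length + b.primeFactorsList.length := by
  rw [(Nat.perm_primeFactorsList_mul ha hb).length_eq, List.length_append]

lemma prime_dvd_factorial_nine {p : ℕ} (hp : p.Prime) (h : p ∣ Nat.factorial 9) : p ≤ 7 := by
  have h1 : p ≤ 9 := (hp.dvd_factorial).mp h
  have h8 : p ≠ 8 := by rintro rfl; revert hp; norm_num
  have h9 : p ≠ 9 := by rintro rfl; revert hp; norm_num
  omega

lemma small_eight {m c : ℕ} (hm : m ∣ Nat.factorial 8) (hm2 : m ≤ 8 * 8 ^ 3) (hc : c ≤ m.primeFactorsList.length) :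
    c ≤ 9 := by
  obtain ⟨d, hd⟩ := hm
  have hf : Nat.factorial 8 = 40320 := rfl
  have hd0 : d ≠ 0 := by rintro rfl; rw [hf] at hd; omega
  have hm0 : m ≠ 0 := by rintro rfl; rw [hf] at hd; omega
  have hlen : (Nat.factorial 8).primeFactorsList.length = 11 := by
    rw [hf, show (40320 : ℕ) = 2 * (2 * (2 * (2 * (2 * (2 * (2 * (3 * (3 * (5 * 7))))))))) by norm_num]
    repeat rw [length_mul (by norm_num) (by norm_num)]
    rw [Nat.primeFactorsList_prime Nat.prime_two, Nat.primeFactorsList_prime Nat.prime_three,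
      Nat.primeFactorsList_prime Nat.prime_five, Nat.primeFactorsList_prime Nat.prime_seven]
    rfl
  have h1 := length_mul hm0 hd0
  rw [← hd, hlen] at h1
  have h2 : d ≤ 7 ^ d.primeFactorsList.length := le_pow_length hd0 (fun p hp hpd =>
    prime_dvd_factorial_nine hp ((hpd.trans (Dvd.intro_left _ hd.symm)).trans
      (Nat.factorial_dvd_factorial (by norm_num))))
  have h3 : 10 ≤ d := by
    by_contra h
    have : m * d ≤ 8 * 8 ^ 3 * 9 := Nat.mul_le_mul hm2 (by omega)
    rw [← hd, hf] at this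
    omega
  have h4 : 2 ≤ d.primeFactorsList.length := by
    by_contra h
    have : 7 ^ d.primeFactorsList.length ≤ 7 ^ 1 := Nat.pow_le_pow_right (by norm_num) (by omega)
    omega
  omega

lemma small_nine {m c : ℕ} (hm : m ∣ Nat.factorial 9) (hm2 : m ≤ 9 * 9 ^ 3) (hc : c ≤ m.primeFactorsList.length) :
    c ≤ 10 := by
  obtain ⟨d, hd⟩ := hm
  have hf : Nat.factorial 9 = 362880 := rfl
  have hd0 : d ≠ 0 := by rintro rfl; rw [hf] at hd; omega
  have hm0 : m ≠ 0 := by rintro rfl; rw [hf] at hd; omega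
  have hlen : (Nat.factorial 9).primeFactorsList.length = 13 := by
    rw [hf, show (362880 : ℕ) = 2 * (2 * (2 * (2 * (2 * (2 * (2 * (3 * (3 * (3 * (3 * (5 * 7))))))))))) by norm_num]
    repeat rw [length_mul (by norm_num) (by norm_num)]
    rw [Nat.primeFactorsList_prime Nat.prime_two, Nat.primeFactorsList_prime Nat.prime_three,
      Nat.primeFactorsList_prime Nat.prime_five, Nat.primeFactorsList_prime Nat.prime_seven]
    rfl
  have h1 := length_mul hm0 hd0
  rw [← hd, hlen] at h1
  have h2 : d ≤ 7 ^ d.primeFactorsList.length := le_pow_length hd0 (fun p hp hpd =>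
    prime_dvd_factorial_nine hp (hpd.trans (Dvd.intro_left _ hd.symm)))
  have h3 : 50 ≤ d := by
    by_contra h
    have : m * d ≤ 9 * 9 ^ 3 * 49 := Nat.mul_le_mul hm2 (by omega)
    rw [← hd, hf] at this
    omega
  have h4 : 3 ≤ d.primeFactorsList.length := by
    by_contra h
    have : 7 ^ d.primeFactorsList.length ≤ 7 ^ 2 := Nat.pow_le_pow_right (by norm_num) (by omega)
    omega
  omega

/-- the arithmetic of the affine case -/
lemma affine_arith {p d n c g m : ℕ} (hp : p.Prime) (hd : 2 ≤ d) (hn : n = p ^ d) (hg : 2 ^ g ≤ n)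
    (hm : m ≤ n * n ^ g) (hmd : m ∣ n.factorial) (hc1 : 2 ^ c ≤ m) (hc2 : c ≤ m.primeFactorsList.length) :
    3 * c + 4 ≤ 4 * n := by
  rcases Nat.lt_or_ge n 19 with h19 | h19
  swap
  · exact arith1 h19 hg (hc1.trans hm)
  have hp2 := hp.two_le
  have hp4 : p ≤ 4 := by
    by_contra h
    have : 5 ^ 2 ≤ p ^ d := (Nat.pow_le_pow_left (by omega : 5 ≤ p) 2).trans
      (Nat.pow_le_pow_right (by omega) hd)
    omega
  have hd4 : d ≤ 4 := by
    by_contra h
    have : 2 ^ 5 ≤ p ^ d := (Nat.pow_le_pow_left hp2 5).trans (Nat.pow_le_pow_right (by omega) (by omega))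
    omega
  have hp4' : p ≠ 4 := by rintro rfl; revert hp; norm_num
  have hcases : n = 4 ∨ n = 8 ∨ n = 9 ∨ n = 16 := by
    interval_cases p
    · interval_cases d <;> simp [hn]
    · interval_cases d
      · simp [hn]
      · exfalso; rw [hn] at h19; norm_num at h19
      · exfalso; rw [hn] at h19; norm_num at h19
    · omega
  rcases hcases with rfl | rfl | rfl | rfl
  · have : c ≤ 4 := small_four hmd hc2
    omega
  · have hg3 : g ≤ 3 := by
      by_contra h
      have : 2 ^ 4 ≤ 2 ^ g := Nat.pow_le_pow_right (by norm_num) (by omega)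
      omega
    have : c ≤ 9 := small_eight hmd (hm.trans (Nat.mul_le_mul le_rfl (Nat.pow_le_pow_right (by norm_num) hg3))) hc2
    omega
  · have hg3 : g ≤ 3 := by
      by_contra h
      have : 2 ^ 4 ≤ 2 ^ g := Nat.pow_le_pow_right (by norm_num) (by omega)
      omega
    have : c ≤ 10 := small_nine hmd (hm.trans (Nat.mul_le_mul le_rfl (Nat.pow_le_pow_right (by norm_num) hg3))) hc2
    omega
  · have hg3 : g ≤ 4 := by
      by_contra h
      have : 2 ^ 5 ≤ 2 ^ g := Nat.pow_le_pow_right (by norm_num) (by omega)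
      omega
    have h1 : 2 ^ c ≤ 2 ^ 20 := by
      calc 2 ^ c ≤ 16 * 16 ^ g := hc1.trans hm
        _ ≤ 16 * 16 ^ 4 := Nat.mul_le_mul le_rfl (Nat.pow_le_pow_right (by norm_num) hg3)
        _ = 2 ^ 20 := by norm_num
    have : c ≤ 20 := (Nat.pow_le_pow_iff_right (by norm_num : 1 < 2)).mp h1
    omega

theorem prim_bound {G : Type*} [Group G] [Finite G] {Ω : Type*} [Finite Ω] [MulAction G Ω]
    [FaithfulSMul G Ω] [htr : IsPretransitive G Ω] (α : Ω) {n : ℕ} (hn : Nat.card Ω = n) (h2 : 2 ≤ n)
    (hmax : ∀ X : Subgroup G, stabilizer G α < X → X = ⊤)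
    (hst : 3 * cl (stabilizer G α) + 8 ≤ 4 * n) : 3 * cl (⊤ : Subgroup G) + 4 ≤ 4 * n := by
  classical
  set A : Subgroup G := stabilizer G α with hA
  have hnt : Nontrivial Ω := Finite.one_lt_card_iff_nontrivial.mp (by omega)
  have hG1 : (⊤ : Subgroup G) ≠ ⊥ := by
    intro h
    obtain ⟨β, hβ⟩ := exists_ne α
    obtain ⟨g, hg⟩ := exists_smul_eq G α β
    have : g ∈ (⊤ : Subgroup G) := trivial
    rw [h, Subgroup.mem_bot] at this
    apply hβ
    rw [← hg, this, one_smul]
  obtain ⟨N, hN, -, hN1, hmin⟩ := Cfsg.Agent.Solv.exists_minimal_normal (⊤ : Subgroup G) inferInstance hG1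
  have hNA : ¬ N ≤ A := by
    intro hle
    apply hN1
    rw [eq_bot_iff]
    intro x hx
    rw [Subgroup.mem_bot]
    apply FaithfulSMul.eq_of_smul_eq_smul (α := Ω)
    intro ω
    rw [one_smul]
    obtain ⟨g, rfl⟩ := exists_smul_eq G α ω
    have := hle (hN.conj_mem x hx g⁻¹)
    rw [hA, mem_stabilizer_iff, mul_smul, mul_smul, inv_inv, inv_smul_eq_iff] at this
    exact this
  have hAN : A ⊔ N = ⊤ := by
    apply hmax
    refine lt_of_le_of_ne le_sup_left ?_
    intro he
    exact hNA (le_trans le_sup_right he.ge)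
  have htrN : IsPretransitive N Ω := by
    rw [MulAction.isPretransitive_iff_base α]
    intro ω
    obtain ⟨g, rfl⟩ := exists_smul_eq G α ω
    have : g⁻¹ ∈ ((A ⊔ N : Subgroup G) : Set G) := by rw [hAN]; trivial
    rw [Subgroup.mul_normal] at this
    obtain ⟨a, ha, m, hm, ham⟩ := this
    refine ⟨⟨m⁻¹, N.inv_mem hm⟩, ?_⟩
    change m⁻¹ • α = g • α
    have h1 : g = m⁻¹ * a⁻¹ := by
      have : a * m = g⁻¹ := ham
      rw [← mul_inv_rev, this, inv_inv]
    rw [h1, mul_smul]
    congr 1
    have : a⁻¹ ∈ A := A.inv_mem ha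
    exact (mem_stabilizer_iff.mp this).symm
  -- orders
  have hcardN : n * Nat.card (A ⊓ N : Subgroup G) = Nat.card N := by
    have h1 := MulAction.index_stabilizer_of_transitive N α
    have h3 := Subgroup.card_mul_index (stabilizer N α)
    rw [h1, hn] at h3
    have h4 : stabilizer N α = (A ⊓ N).subgroupOf N := by
      ext x
      rw [Subgroup.mem_subgroupOf, Subgroup.mem_inf]
      exact ⟨fun h => ⟨h, x.2⟩, fun h => h.1⟩
    rw [h4, Nat.card_congr (Subgroup.subgroupOfEquivOfLe (inf_le_right : A ⊓ N ≤ N)).toEquiv] at h3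
    rw [mul_comm]
    exact h3
  -- composition lengths
  have hcl : cl (⊤ : Subgroup G) + cl (A ⊓ N) = cl N + cl A := by
    have h1 := cl_add (QuotientGroup.mk' N) (⊤ : Subgroup G)
    have h3 := cl_add (QuotientGroup.mk' N) A
    rw [QuotientGroup.ker_mk', top_inf_eq] at h1
    rw [QuotientGroup.ker_mk'] at h3
    have h4 : A.map (QuotientGroup.mk' N) = (⊤ : Subgroup G).map (QuotientGroup.mk' N) := by
      rw [← hAN, Subgroup.map_sup]
      have : N.map (QuotientGroup.mk' N) = ⊥ := by
        rw [Subgroup.map_eq_bot_iff, QuotientGroup.ker_mk']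
      rw [this, sup_bot_eq]
    rw [h4] at h3
    omega
  by_cases hcase : cl N ≤ cl (A ⊓ N) + 1
  · omega
  obtain ⟨g, hg, hgG⟩ := card_le_centralizer N
  have hcent := card_centralizer_le (Ω := Ω) N α
  rw [hn] at hcent
  have h2c := cl_pow_le (⊤ : Subgroup G)
  rw [Subgroup.card_top] at h2c
  by_cases hab : IsMulCommutative N
  · have hsol : Group.IsSolvable N := by
      let : CommGroup N := { (inferInstance : Group N) with mul_comm := hab.is_comm.comm }
      infer_instance
    obtain ⟨-, p, hp, hpe⟩ := Cfsg.Agent.Solv.minimal_normal_of_solvable N hsol hN1 hmin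
    have hreg := Cfsg.Agent.H59.stabilizer_eq_bot_of_abelian N hab α
    have hD : A ⊓ N = ⊥ := by
      rw [eq_bot_iff]
      rintro x ⟨hxA, hxN⟩
      have : (⟨x, hxN⟩ : N) ∈ stabilizer N α := hxA
      rw [hreg, Subgroup.mem_bot] at this
      rw [Subgroup.mem_bot]
      exact congrArg Subtype.val this
    rw [hD, Subgroup.card_bot, mul_one] at hcardN
    have := Fact.mk hp
    have hpN : IsPGroup p N := fun x => ⟨1, by
      rw [pow_one]; exact Subtype.ext (by simpa using hpe x x.2)⟩
    obtain ⟨d, hd⟩ := hpN.exists_card_eq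
    have hd2 : 2 ≤ d := by
      by_contra hlt
      apply hcase
      have h1 := cl_le_primeFactors N
      have h3 : (Nat.card N).primeFactorsList.length ≤ 1 := by
        rw [hd]
        rcases Nat.lt_or_ge d 1 with h0 | h0
        · have : d = 0 := by omega
          rw [this]; simp
        · have : d = 1 := by omega
          rw [this, pow_one, Nat.primeFactorsList_prime hp]; simp
      omega
    have hdvd : Nat.card G ∣ n.factorial := by
      have h1 : Nat.card (Equiv.Perm Ω) = n.factorial := by rw [Nat.card_perm, hn]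
      rw [← h1]
      exact Subgroup.card_dvd_of_injective (MulAction.toPermHom G Ω) MulAction.toPerm_injective
    have hnp : n = p ^ d := by rw [hcardN, hd]
    rw [← hcardN] at hg hgG
    have hm : Nat.card G ≤ n * n ^ g := hgG.trans (Nat.mul_le_mul hcent le_rfl)
    have hc2 := cl_le_primeFactors (⊤ : Subgroup G)
    rw [Subgroup.card_top] at hc2
    exact affine_arith hp hd2 hnp hg hm hdvd h2c hc2
  · obtain ⟨k, L, hL⟩ := exists_sys N hN1 hmin hab
    rcases hL.dichotomy A hAN hmax hcardN with h | ⟨h3, h4⟩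
    · exact absurd h hcase
    · exact arith2 h4 h3 hg (h2c.trans (hgG.trans (Nat.mul_le_mul hcent le_rfl)))

end Cfsg.Agent.H48
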