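import Cfsg.Agent.H48.MinSys
import Cfsg.Agent.H37.MinNormal
import Cfsg.Agent.H48.CompLen3

/-!
The socle of a primitive group.
-/

set_option autoImplicit false
set_option linter.unusedSectionVars false

namespace Cfsg.Agent.H48

open Subgroup MulAction

/-- minimal normal subgroup -/
def IsMN {G : Type*} [Group G] (V : Subgroup G) : Prop :=
  V.Normal ∧ V ≠ ⊥ ∧ ∀ M : Subgroup G, M.Normal → M ≤ V → M = ⊥ ∨ M = V

lemma IsMN.inf_eq {G : Type*} [Group G] {V W : Subgroup G} (hV : IsMN V) (hW : IsMN W) (h : V ≠ W) :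
    V ⊓ W = ⊥ := by
  have := hV.1
  have := hW.1
  rcases hV.2.2 (V ⊓ W) inferInstance inf_le_left with h1 | h1
  · exact h1
  · rcases hW.2.2 (V ⊓ W) inferInstance inf_le_right with h2 | h2
    · exact h2
    · exact absurd (h1.symm.trans h2) h

lemma IsMN.comm {G : Type*} [Group G] {V W : Subgroup G} (hV : IsMN V) (hW : IsMN W) (h : V ≠ W)
    {v w : G} (hv : v ∈ V) (hw : w ∈ W) : v * w = w * v := by
  have h1 : v * w * v⁻¹ * w⁻¹ ∈ V ⊓ W := by
    refine ⟨?_, ?_⟩
    · have := V.mul_mem hv (hV.1.conj_mem _ (V.inv_mem hv) w)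
      have e : v * w * v⁻¹ * w⁻¹ = v * (w * v⁻¹ * w⁻¹) := by group
      rw [e]; exact this
    · exact W.mul_mem (hW.1.conj_mem _ hw v) (W.inv_mem hw)
  rw [hV.inf_eq hW h, Subgroup.mem_bot] at h1
  have := mul_inv_eq_one.mp h1
  rwa [mul_inv_eq_iff_eq_mul] at this

/-- powers -/
def doublePow (T : Type*) [Group T] (m : ℕ) : ((Fin m → T) × (Fin m → T)) ≃* (Fin (m + m) → T) where
  toFun p := Fin.append p.1 p.2
  invFun f := (fun i => f (Fin.castAdd m i), fun i => f (Fin.natAdd m i))
  left_inv p := by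
    refine Prod.ext (funext fun i => ?_) (funext fun i => ?_)
    · exact Fin.append_left _ _ _
    · exact Fin.append_right _ _ _
  right_inv f := by
    funext i
    refine Fin.addCases (fun j => ?_) (fun j => ?_) i
    · exact Fin.append_left _ _ _
    · exact Fin.append_right _ _ _
  map_mul' p q := by
    funext i
    refine Fin.addCases (fun j => ?_) (fun j => ?_) i
    · rw [Pi.mul_apply, Fin.append_left, Fin.append_left, Fin.append_left]; rfl
    · rw [Pi.mul_apply, Fin.append_right, Fin.append_right, Fin.append_right]; rfl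

variable {G Ω : Type*} [Group G] [MulAction G Ω] [FaithfulSMul G Ω]

/-- commuting transitive groups are isomorphic (and regular). -/
theorem iso_of_commuting {V W : Subgroup G} [IsPretransitive V Ω] [IsPretransitive W Ω]
    (hc : ∀ v ∈ V, ∀ w ∈ W, v * w = w * v) (α : Ω) : Nonempty (V ≃* W) := by
  have hVreg : ∀ v ∈ V, v • α = α → v = 1 := fun v hv h =>
    Cfsg.Agent.H59.eq_one_of_commute_transitive W v (fun w hw => (hc v hv w hw).symm) α h
  have hWreg : ∀ w ∈ W, w • α = α → w = 1 := fun w hw h =>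
    Cfsg.Agent.H59.eq_one_of_commute_transitive V w (fun v hv => hc v hv w hw) α h
  have hex : ∀ v : V, ∃ w : W, (w : G) • α = (v : G)⁻¹ • α := by
    intro v
    obtain ⟨w, hw⟩ := exists_smul_eq W α ((v : G)⁻¹ • α)
    exact ⟨w, hw⟩
  choose f hf using hex
  have huniq : ∀ w w' : W, (w : G) • α = (w' : G) • α → w = w' := by
    intro w w' h
    have h1 : ((w' : G)⁻¹ * w) = 1 := by
      apply hWreg _ (W.mul_mem (W.inv_mem w'.2) w.2)
      rw [mul_smul, h, inv_smul_smul]
    exact Subtype.ext (inv_mul_eq_one.mp h1).symm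
  refine ⟨MulEquiv.ofBijective (MonoidHom.mk' f ?_) ⟨?_, ?_⟩⟩
  · intro v v'
    apply huniq
    rw [hf]
    rw [Subgroup.coe_mul, Subgroup.coe_mul, mul_inv_rev, mul_smul, mul_smul, hf, ← hf v, ← mul_smul,
      ← mul_smul, hc _ (V.inv_mem v'.2) _ (f v).2, mul_smul, ← hf v']
  · intro v v' h
    have h0 : f v = f v' := h
    have h1 : (v : G)⁻¹ • α = (v' : G)⁻¹ • α := by rw [← hf, ← hf, h0]
    have h2 : (v' : G) * (v : G)⁻¹ = 1 := by
      apply hVreg _ (V.mul_mem v'.2 (V.inv_mem v.2))
      rw [mul_smul, h1, smul_inv_smul]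
    exact Subtype.ext (mul_inv_eq_one.mp h2).symm
  · intro w
    obtain ⟨v, hv⟩ := exists_smul_eq V α ((w : G) • α)
    refine ⟨v⁻¹, ?_⟩
    apply huniq
    change ((f v⁻¹ : W) : G) • α = _
    rw [hf, Subgroup.coe_inv, inv_inv]
    exact hv

/-- at most two minimal normal subgroups. -/
theorem third_eq [Finite G] [Finite Ω] (hprim : IsPreprimitive G Ω) (α : Ω) {V W U : Subgroup G} (hV : IsMN V)
    (hW : IsMN W) (hVW : V ≠ W) (hU : IsMN U) (hUV : V ≠ U) : U = W := by
  have := Cfsg.Agent.H59.transitive_of_normal hprim V hV.1 hV.2.1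
  have := Cfsg.Agent.H59.transitive_of_normal hprim W hW.1 hW.2.1
  have h1 : Nat.card (centralizer (V : Set G)) ≤ Nat.card Ω := card_centralizer_le V α
  have hWc : W ≤ centralizer (V : Set G) := fun w hw => Subgroup.mem_centralizer_iff.mpr
    (fun v hv => hV.comm hW hVW hv hw)
  have hUc : U ≤ centralizer (V : Set G) := fun w hw => Subgroup.mem_centralizer_iff.mpr
    (fun v hv => hV.comm hU hUV hv hw)
  have hWn : Nat.card Ω ≤ Nat.card W := by
    refine Nat.card_le_card_of_surjective (fun w : W => w • α) ?_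
    intro ω
    exact exists_smul_eq W α ω
  have hWeq : W = centralizer (V : Set G) := Subgroup.eq_of_le_of_card_ge hWc (h1.trans hWn)
  rw [← hWeq] at hUc
  rcases hW.2.2 U hU.1 hUc with h | h
  · exact absurd h hU.2.1
  · exact h

theorem socle_prim [Finite G] [Finite Ω] (hprim : IsPreprimitive G Ω) (N : Subgroup G)
    (hN : N = sSup {V : Subgroup G | IsMN V}) :
    (∃ p : ℕ, p.Prime ∧ IsMulCommutative N ∧ (∀ x : N, x ^ p = 1) ∧
      MulAction.IsPretransitive N Ω ∧ ∀ ω : Ω, MulAction.stabilizer N ω = ⊥) ∨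
    (∃ (T : Type) (_ : Group T) (m : ℕ), 1 ≤ m ∧ IsSimpleGroup T ∧ ¬ IsMulCommutative T ∧
      Nonempty (N ≃* (Fin m → T))) := by
  have htr : IsPretransitive G Ω := hprim.toIsPretransitive
  by_cases hsub : Subsingleton Ω
  · left
    have hG : ∀ g : G, g = 1 := fun g => FaithfulSMul.eq_of_smul_eq_smul (α := Ω)
      (fun ω => Subsingleton.elim _ _)
    refine ⟨2, Nat.prime_two, ⟨⟨fun a b => ?_⟩⟩, fun x => ?_, ⟨fun a b => ⟨1, Subsingleton.elim _ _⟩⟩, fun ω => ?_⟩
    · exact Subtype.ext (by rw [hG (a * b : N), hG (b * a : N)])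
    · exact Subtype.ext (by rw [hG (x ^ 2 : N), hG (1 : N)])
    · rw [eq_bot_iff]
      intro x _
      rw [Subgroup.mem_bot]
      exact Subtype.ext (hG x)
  have hnt : Nontrivial Ω := not_subsingleton_iff_nontrivial.mp hsub
  obtain ⟨α, β, hαβ⟩ := exists_pair_ne Ω
  have hG1 : (⊤ : Subgroup G) ≠ ⊥ := by
    intro h
    obtain ⟨g, hg⟩ := exists_smul_eq G α β
    have : g ∈ (⊤ : Subgroup G) := trivial
    rw [h, Subgroup.mem_bot] at this
    apply hαβ
    rw [← hg, this, one_smul]
  obtain ⟨V, hVn, -, hV1, hVmin⟩ := Cfsg.Agent.Solv.exists_minimal_normal (⊤ : Subgroup G) inferInstance hG1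
  have hV : IsMN V := ⟨hVn, hV1, hVmin⟩
  have hVt := Cfsg.Agent.H59.transitive_of_normal hprim V hVn hV1
  have hVN : V ≤ N := by rw [hN]; exact le_sSup hV
  by_cases huniq : ∀ W, IsMN W → V = W
  · -- unique minimal normal subgroup
    have hNV : N = V := by
      apply le_antisymm _ hVN
      rw [hN]
      apply sSup_le
      intro W hW
      exact (huniq W hW).ge
    subst hNV
    by_cases hab : IsMulCommutative N
    · left
      have hsol : Group.IsSolvable N := by
        let : CommGroup N := { (inferInstance : Group N) with mul_comm := hab.is_comm.comm }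
        infer_instance
      obtain ⟨-, p, hp, hpe⟩ := Cfsg.Agent.Solv.minimal_normal_of_solvable N hsol hV1 hVmin
      exact ⟨p, hp, hab, fun x => Subtype.ext (by simpa using hpe x x.2), hVt,
        Cfsg.Agent.H59.stabilizer_eq_bot_of_abelian N hab⟩
    · right
      obtain ⟨T, m, hTN, -, hTs, hm, ⟨e⟩⟩ := Cfsg.Agent.H37.minNormal_structure N hVn hV1 hVmin
      obtain ⟨T', hT', ⟨e'⟩⟩ := Cfsg.Agent.H37.exists_small_copy T
      refine ⟨T', hT', m, hm, e'.symm.isSimpleGroup, ?_, ⟨e.trans (MulEquiv.piCongrRight (fun _ => e'))⟩⟩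
      intro hc
      apply hab
      refine ⟨⟨fun a b => ?_⟩⟩
      apply (e.trans (MulEquiv.piCongrRight (fun _ => e'))).injective
      rw [map_mul, map_mul]
      funext i
      exact hc.is_comm.comm _ _
  · right
    push Not at huniq
    obtain ⟨W, hW, hVW⟩ := huniq
    have hWt := Cfsg.Agent.H59.transitive_of_normal hprim W hW.1 hW.2.1
    obtain ⟨φ⟩ := iso_of_commuting (Ω := Ω) (V := V) (W := W) (fun v hv w hw => hV.comm hW hVW hv hw) α
    have hNVW : N = V ⊔ W := by
      apply le_antisymm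
      · rw [hN]
        apply sSup_le
        intro U hU
        by_cases h : V = U
        · rw [← h]; exact le_sup_left
        · rw [third_eq hprim α hV hW hVW hU h]; exact le_sup_right
      · apply sup_le hVN
        rw [hN]; exact le_sSup hW
    have hab : ¬ IsMulCommutative V := by
      intro hc
      -- then V = C(V) ⊇ W
      have h1 : Nat.card (centralizer (V : Set G)) ≤ Nat.card Ω := card_centralizer_le V α
      have hVc : V ≤ centralizer (V : Set G) := fun w hw => Subgroup.mem_centralizer_iff.mpr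
        (fun v hv => Cfsg.Agent.Solv.comm_of_isMulCommutative hc hv hw)
      have hVn' : Nat.card Ω ≤ Nat.card V := by
        refine Nat.card_le_card_of_surjective (fun w : V => w • α) ?_
        intro ω
        exact exists_smul_eq V α ω
      have hVeq : V = centralizer (V : Set G) := Subgroup.eq_of_le_of_card_ge hVc (h1.trans hVn')
      have hWc : W ≤ V := by
        intro w hw
        rw [hVeq]
        exact Subgroup.mem_centralizer_iff.mpr (fun v hv => hV.comm hW hVW hv hw)
      have := hV.inf_eq hW hVW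
      rw [inf_eq_right.mpr hWc] at this
      exact hW.2.1 this
    obtain ⟨T, m, hTN, -, hTs, hm, ⟨e⟩⟩ := Cfsg.Agent.H37.minNormal_structure V hVn hV1 hVmin
    obtain ⟨T', hT', ⟨e'⟩⟩ := Cfsg.Agent.H37.exists_small_copy T
    let eV : V ≃* (Fin m → T') := e.trans (MulEquiv.piCongrRight (fun _ => e'))
    let eW : W ≃* (Fin m → T') := φ.symm.trans eV
    have hcomm : ∀ (v : V) (w : W), Commute (V.subtype v) (W.subtype w) := fun v w =>
      hV.comm hW hVW v.2 w.2
    let Φ : V × W →* G := MonoidHom.noncommCoprod V.subtype W.subtype hcomm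
    have hΦr : Φ.range = N := by
      rw [hNVW, MonoidHom.noncommCoprod_range, Subgroup.range_subtype, Subgroup.range_subtype]
    have hΦi : Function.Injective Φ := by
      rw [injective_iff_map_eq_one]
      rintro ⟨v, w⟩ h
      have h1 : (v : G) * (w : G) = 1 := h
      have h2 : (v : G) = (w : G)⁻¹ := eq_inv_of_mul_eq_one_left h1
      have h3 : (v : G) ∈ V ⊓ W := ⟨v.2, by
        have := W.inv_mem w.2
        rw [← h2] at this
        exact this⟩
      rw [hV.inf_eq hW hVW, Subgroup.mem_bot] at h3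
      have h4 : (w : G) = 1 := by rw [h3] at h1; simpa using h1
      exact Prod.ext (Subtype.ext h3) (Subtype.ext h4)
    refine ⟨T', hT', m + m, by omega, e'.symm.isSimpleGroup, ?_, ?_⟩
    · intro hc
      apply hab
      refine ⟨⟨fun a b => ?_⟩⟩
      apply eV.injective
      rw [map_mul, map_mul]
      funext i
      exact hc.is_comm.comm _ _
    · rw [← hΦr]
      exact ⟨(MonoidHom.ofInjective hΦi).symm.trans ((MulEquiv.prodCongr eV eW).trans (doublePow T' m))⟩

end Cfsg.Agent.H48
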