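import Cfsg.Agent.H48.MinSys

/-!
Position of a maximal subgroup `A` with respect to a supplemented non-abelian minimal normal subgroup.
-/

set_option autoImplicit false
set_option linter.unusedSectionVars false

namespace Cfsg.Agent.H48.Sys

open Subgroup
open scoped Pointwise

variable {G : Type*} [Group G] {N : Subgroup G} {k : ℕ} {L : Fin k → Subgroup G}

/-- projection of `A ⊓ N` to the `i`-th factor -/
noncomputable def K (h : Sys N L) (A : Subgroup G) (i : Fin k) : Subgroup (L i) :=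
  (A.comap h.emb).map (Pi.evalMonoidHom (fun i => L i) i)

lemma mem_K (h : Sys N L) (A : Subgroup G) (i : Fin k) (t : L i) :
    t ∈ h.K A i ↔ ∃ x, h.emb x ∈ A ∧ x i = t := Iff.rfl

lemma mem_K_iff (h : Sys N L) (A : Subgroup G) (i : Fin k) (t : L i) :
    t ∈ h.K A i ↔ ∃ d ∈ A, d ∈ N ∧ d * (t : G)⁻¹ ∈ centralizer (L i : Set G) := by
  rw [mem_K]
  constructor
  · rintro ⟨x, hx, rfl⟩
    refine ⟨_, hx, h.emb_mem x, ?_⟩
    have : h.emb x * ((x i : L i) : G)⁻¹ = h.emb (x * (Pi.mulSingle i (x i))⁻¹) := by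
      rw [map_mul, map_inv, h.emb_single]
    rw [this, h.emb_mem_centralizer]
    simp
  · rintro ⟨d, hd, hdN, hc⟩
    obtain ⟨x, rfl⟩ := h.exists_emb hdN
    refine ⟨x, hd, ?_⟩
    have : h.emb x * (t : G)⁻¹ = h.emb (x * (Pi.mulSingle i t)⁻¹) := by
      rw [map_mul, map_inv, h.emb_single]
    rw [this, h.emb_mem_centralizer] at hc
    simp only [Pi.mul_apply, Pi.inv_apply, Pi.mulSingle_eq_same] at hc
    exact mul_inv_eq_one.mp hc

lemma conj_K (h : Sys N L) [hN : N.Normal] {A : Subgroup G} {a : G} (ha : a ∈ A) {i j : Fin k}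
    (hij : MulAut.conj a • L i = L j) {t : G} (ht : t ∈ L i) (htK : (⟨t, ht⟩ : L i) ∈ h.K A i) :
    ∃ ht' : a * t * a⁻¹ ∈ L j, (⟨a * t * a⁻¹, ht'⟩ : L j) ∈ h.K A j := by
  have ht' : a * t * a⁻¹ ∈ L j := by rw [← hij]; exact Cfsg.Agent.H59.conj_mem_conj_smul ht
  refine ⟨ht', ?_⟩
  rw [mem_K_iff] at htK ⊢
  obtain ⟨d, hd, hdN, hc⟩ := htK
  refine ⟨a * d * a⁻¹, A.mul_mem (A.mul_mem ha hd) (A.inv_mem ha), hN.conj_mem d hdN a, ?_⟩
  rw [Subgroup.mem_centralizer_iff] at hc ⊢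
  intro y hy
  rw [SetLike.mem_coe, ← hij, Cfsg.Agent.H59.mem_conj_smul] at hy
  have h1 := hc _ hy
  simp only at h1 ⊢
  calc y * (a * d * a⁻¹ * (a * t * a⁻¹)⁻¹) = a * (a⁻¹ * y * a * (d * t⁻¹)) * a⁻¹ := by group
    _ = a * (d * t⁻¹ * (a⁻¹ * y * a)) * a⁻¹ := by rw [h1]
    _ = a * d * a⁻¹ * (a * t * a⁻¹)⁻¹ * y := by group

lemma trans' (h : Sys N L) {A : Subgroup G} [hN : N.Normal] (hAN : A ⊔ N = ⊤) (i j : Fin k) :
    ∃ a ∈ A, MulAut.conj a • L i = L j := by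
  obtain ⟨g, hg⟩ := h.trans i j
  have : g ∈ ((A ⊔ N : Subgroup G) : Set G) := by rw [hAN]; trivial
  rw [Subgroup.mul_normal] at this
  obtain ⟨a, ha, n, hn, rfl⟩ := this
  refine ⟨a, ha, ?_⟩
  rw [← hg, Cfsg.Agent.H59.conj_smul_mul, h.conj_eq i hn]

/-- the product of the projections -/
noncomputable def M (h : Sys N L) (A : Subgroup G) : Subgroup G :=
  (Subgroup.pi Set.univ (h.K A)).map h.emb

lemma emb_mem_M (h : Sys N L) (A : Subgroup G) (x : ∀ i, L i) : h.emb x ∈ h.M A ↔ ∀ i, x i ∈ h.K A i := by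
  unfold M
  rw [Subgroup.mem_map_iff_mem h.emb_inj]
  simp [Subgroup.mem_pi]

lemma le_M (h : Sys N L) (A : Subgroup G) : A ⊓ N ≤ h.M A := by
  rintro d ⟨hd, hdN⟩
  obtain ⟨x, rfl⟩ := h.exists_emb hdN
  rw [emb_mem_M]
  intro i
  exact ⟨x, hd, rfl⟩

lemma M_le (h : Sys N L) (A : Subgroup G) : h.M A ≤ N := by
  rintro _ ⟨x, -, rfl⟩
  exact h.emb_mem x

lemma conj_M (h : Sys N L) [hN : N.Normal] {A : Subgroup G} {a : G} (ha : a ∈ A) {m : G}
    (hm : m ∈ h.M A) : a * m * a⁻¹ ∈ h.M A := by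
  classical
  have key : h.M A ≤ (h.M A).comap (MulAut.conj a).toMonoidHom := by
    conv_lhs => unfold M
    rw [Subgroup.map_le_iff_le_comap, Subgroup.pi_le_iff]
    intro i
    rintro _ ⟨t, ht, rfl⟩
    rw [Subgroup.mem_comap, Subgroup.mem_comap]
    have e1 : h.emb (MonoidHom.mulSingle (fun i => L i) i t) = (t : G) := h.emb_single i t
    rw [e1]
    obtain ⟨j, hj⟩ := h.norm a i
    obtain ⟨ht', hK⟩ := h.conj_K ha hj t.2 ht
    have e2 : (MulAut.conj a).toMonoidHom (t : G) = h.emb (Pi.mulSingle j ⟨a * t * a⁻¹, ht'⟩) := by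
      rw [h.emb_single]; rfl
    rw [e2, emb_mem_M]
    intro l
    by_cases hl : l = j
    · subst hl; simpa using hK
    · rw [Pi.mulSingle_eq_of_ne hl]; exact Subgroup.one_mem _
  exact key hm

/-- If some projection is proper then `A ⊓ N` is a product of proper subgroups. -/
theorem product_or_full (h : Sys N L) [hN : N.Normal] (A : Subgroup G) (hAN : A ⊔ N = ⊤)
    (hmax : ∀ X : Subgroup G, A < X → X = ⊤) :
    (∀ i, h.K A i = ⊤) ∨ ((∀ i, h.K A i ≠ ⊤) ∧ ∀ x, h.emb x ∈ A ↔ ∀ i, x i ∈ h.K A i) := by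
  by_cases hfull : ∀ i, h.K A i = ⊤
  · exact Or.inl hfull
  right
  push Not at hfull
  obtain ⟨i₀, hi₀⟩ := hfull
  have hall : ∀ i, h.K A i ≠ ⊤ := by
    intro i hi
    apply hi₀
    obtain ⟨a, ha, haL⟩ := h.trans' hAN i i₀
    rw [eq_top_iff]
    rintro ⟨t, ht⟩ -
    have h1 : a⁻¹ * t * a ∈ L i := by
      rw [← haL, Cfsg.Agent.H59.mem_conj_smul] at ht
      exact ht
    obtain ⟨ht', hK⟩ := h.conj_K (A := A) ha haL h1 (by rw [hi]; trivial)
    convert hK using 2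
    group
  refine ⟨hall, ?_⟩
  have hnorm : A ≤ normalizer (h.M A : Set G) := by
    intro a ha
    rw [Subgroup.mem_normalizer_iff]
    intro m
    constructor
    · exact fun hm => h.conj_M ha hm
    · intro hm
      have := h.conj_M (A.inv_mem ha) hm
      have e : a⁻¹ * (a * m * a⁻¹) * a⁻¹⁻¹ = m := by group
      rwa [e] at this
  have hMA : h.M A ≤ A := by
    by_contra hle
    have h1 : A < A ⊔ h.M A := by
      refine lt_of_le_of_ne le_sup_left ?_
      intro he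
      exact hle (le_trans le_sup_right he.ge)
    have h2 := hmax _ h1
    apply hall i₀
    rw [eq_top_iff]
    intro t _
    have h3 : (t : G) ∈ ((A ⊔ h.M A : Subgroup G) : Set G) := by rw [h2]; trivial
    rw [Subgroup.coe_mul_of_left_le_normalizer_right _ _ hnorm] at h3
    obtain ⟨a, ha, m, hm, ham⟩ := h3
    have ham' : a * m = (t : G) := ham
    have haN : a ∈ N := by
      have h5 : (t : G) * m⁻¹ ∈ N := N.mul_mem (h.le i₀ t.2) (N.inv_mem (h.M_le A hm))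
      rwa [← ham', mul_inv_cancel_right] at h5
    have h4 : (t : G) ∈ h.M A := by
      have h5 : a * m ∈ h.M A := (h.M A).mul_mem (h.le_M A ⟨ha, haN⟩) hm
      rwa [ham'] at h5
    rw [← h.emb_single i₀ t, emb_mem_M] at h4
    have := h4 i₀
    rwa [Pi.mulSingle_eq_same] at this
  intro x
  constructor
  · intro hx i
    exact ⟨x, hx, rfl⟩
  · intro hx
    exact hMA ((h.emb_mem_M A x).mpr hx)

lemma all_or_none (h : Sys N L) [hN : N.Normal] (A : Subgroup G) (hAN : A ⊔ N = ⊤) {i : Fin k}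
    (hi : A ⊓ L i ≠ ⊥) (j : Fin k) : A ⊓ L j ≠ ⊥ := by
  obtain ⟨a, ha, haL⟩ := h.trans' hAN i j
  intro hj
  apply hi
  rw [eq_bot_iff]
  rintro x ⟨hxA, hx⟩
  have : a * x * a⁻¹ ∈ A ⊓ L j := ⟨A.mul_mem (A.mul_mem ha hxA) (A.inv_mem ha), by
    rw [← haL]; exact Cfsg.Agent.H59.conj_mem_conj_smul hx⟩
  rw [hj, Subgroup.mem_bot] at this
  rw [Subgroup.mem_bot]
  have h2 : a * x = a := by rwa [mul_inv_eq_one] at this
  simpa using h2

end Cfsg.Agent.H48.Sys
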